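import Cfsg.Agent.H94.Orbits

/-!
# Direct decompositions of the even part of a Sylow 2-subgroup of a symmetric group (helper94)
-/

set_option autoImplicit false
set_option linter.unusedSectionVars false
set_option linter.unusedVariables false

namespace Cfsg.Agent.H94.Syl2Sym

open Equiv Subgroup

variable {Ω : Type*} [DecidableEq Ω] [Fintype Ω]

namespace IsMatching

variable {P : Subgroup (Perm Ω)} {p : Ω → Ω}

theorem pp_ne (hp : IsMatching P p) {x : Ω} (h : p x ≠ x) : p (p x) ≠ p x := fun h' => h (hp.inj h')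

theorem orbit_fixed (hp : IsMatching P p) (hP : IsPGroup 2 P) {x : Ω} (h : p x = x) :
    MulAction.orbit P x = {x} := by
  ext y
  rw [mem_orbit_iff', Set.mem_singleton_iff]
  constructor
  · rintro ⟨g, hg, rfl⟩
    apply hp.fixed _ _ _ h
    rw [← hp.comm hP hg, h]
  · rintro rfl
    exact ⟨1, P.one_mem, rfl⟩

theorem orbit_p (hp : IsMatching P p) (x : Ω) : p x ∈ MulAction.orbit P x := by
  rw [mem_orbit_iff']
  exact ⟨_, hp.mem x, swap_apply_left _ _⟩

theorem ne_of_mem_orbit (hp : IsMatching P p) (hP : IsPGroup 2 P) {x y : Ω} (h : p x ≠ x)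
    (hy : y ∈ MulAction.orbit P x) : p y ≠ y := by
  rw [mem_orbit_iff'] at hy
  obtain ⟨g, hg, rfl⟩ := hy
  rw [← hp.comm hP hg]
  exact fun h' => h (g.injective h')

theorem sign_swap (hp : IsMatching P p) {x : Ω} (h : p x ≠ x) : Perm.sign (swap x (p x)) = -1 :=
  Perm.sign_swap h.symm

/-- `e_x e_y` -/
theorem sign_two (hp : IsMatching P p) {x y : Ω} (h : p x ≠ x) (h' : p y ≠ y) :
    Perm.sign (swap x (p x) * swap y (p y)) = 1 := by
  rw [Perm.sign_mul, hp.sign_swap h, hp.sign_swap h']; norm_num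

/-- the closure lemma: partial involutions with even pieces are products of `e_x e_y` -/
theorem mem_closure_pairs (hp : IsMatching P p) (hP : IsPGroup 2 P) (K : Subgroup (Perm Ω))
    (hK : ∀ x y, p x ≠ x → y ∈ MulAction.orbit P x → y ≠ x → y ≠ p x →
      swap x (p x) * swap y (p y) ∈ K) :
    ∀ (n : ℕ) (F : Set Ω), F.ncard = n → (∀ x ∈ F, p x ∈ F) → (∀ x ∈ F, p x ≠ x) →
      (∀ x ∈ F, 4 ∣ (F ∩ MulAction.orbit P x).ncard) → ∀ h : Perm Ω, (∀ x ∈ F, h x = p x) → (∀ x, x ∉ F → h x = x) →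
      h ∈ K := by
  intro n
  induction n using Nat.strong_induction_on with
  | _ n ih =>
    intro F hn hF1 hF2 hF3 h hh1 hh2
    rcases F.eq_empty_or_nonempty with hE | ⟨x, hx⟩
    · have : h = 1 := by
        ext y
        rw [hh2 y (by rw [hE]; simp)]
        rfl
      rw [this]
      exact K.one_mem
    · have hfin : (F ∩ MulAction.orbit P x).Finite := Set.toFinite _
      have hxm : x ∈ F ∩ MulAction.orbit P x := ⟨hx, MulAction.mem_orbit_self x⟩
      have hpxm : p x ∈ F ∩ MulAction.orbit P x := ⟨hF1 x hx, hp.orbit_p x⟩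
      have hcard : 4 ≤ (F ∩ MulAction.orbit P x).ncard := by
        apply Nat.le_of_dvd _ (hF3 x hx)
        rw [Set.ncard_pos]
        exact ⟨x, hxm⟩
      obtain ⟨y, hy, hyn⟩ : ∃ y ∈ F ∩ MulAction.orbit P x, y ∉ ({x, p x} : Set Ω) := by
        by_contra hcon
        push Not at hcon
        have h1 : (F ∩ MulAction.orbit P x).ncard ≤ ({x, p x} : Set Ω).ncard :=
          Set.ncard_le_ncard (fun z hz => hcon z hz) (Set.toFinite _)
        have h2 : ({x, p x} : Set Ω).ncard ≤ 2 := (Set.ncard_insert_le _ _).trans (by rw [Set.ncard_singleton])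
        omega
      have hyx : y ≠ x := fun e => hyn (by rw [e]; simp)
      have hypx : y ≠ p x := fun e => hyn (by rw [e]; simp)
      have hpyx : p y ≠ x := fun e => hypx (by rw [← e, hp.invol])
      have hpypx : p y ≠ p x := fun e => hyx (hp.inj e)
      have hpx := hF2 x hx
      have hpy := hF2 y hy.1
      set D : Set Ω := {x, p x, y, p y} with hD
      have hDF : D ⊆ F ∩ MulAction.orbit P x := by
        have hpym : p y ∈ F ∩ MulAction.orbit P x := by
          refine ⟨hF1 y hy.1, ?_⟩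
          have h1 := hp.orbit_p y
          rw [mem_orbit_iff'] at h1
          obtain ⟨g, hg, e⟩ := h1
          rw [← e, orbit_inv P x hg]
          exact hy.2
        rintro z (rfl | rfl | rfl | rfl)
        · exact hxm
        · exact hpxm
        · exact hy
        · exact hpym
      have hDcard : D.ncard = 4 := by
        rw [hD, Set.ncard_insert_of_notMem, Set.ncard_insert_of_notMem, Set.ncard_pair hpy.symm]
        · simp only [Set.mem_insert_iff, Set.mem_singleton_iff, not_or]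
          exact ⟨hypx.symm, hpypx.symm⟩
        · simp only [Set.mem_insert_iff, Set.mem_singleton_iff, not_or]
          exact ⟨hpx.symm, hyx.symm, hpyx.symm⟩
      have hDp : ∀ z, z ∈ D → p z ∈ D := by
        rintro z (rfl | rfl | rfl | rfl)
        · simp [hD]
        · simp [hD, hp.invol]
        · simp [hD]
        · simp [hD, hp.invol]
      have hDp' : ∀ z, p z ∈ D → z ∈ D := by
        intro z hz
        have := hDp _ hz
        rwa [hp.invol] at this
      have hncF : (F \ D).ncard < n := by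
        rw [← hn]
        apply Set.ncard_lt_ncard _ (Set.toFinite _)
        refine ⟨Set.sdiff_subset, fun hcon => ?_⟩
        exact (hcon hx).2 (by simp [hD])
      set t : Perm Ω := swap x (p x) * swap y (p y) with ht
      have ht1 : ∀ z ∈ D, t z = p z := by
        rintro z (rfl | rfl | rfl | rfl)
        · rw [ht, Perm.mul_apply, swap_apply_of_ne_of_ne hyx.symm hpyx.symm, swap_apply_left]
        · rw [ht, Perm.mul_apply, swap_apply_of_ne_of_ne hypx.symm hpypx.symm, swap_apply_right, hp.invol]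
        · rw [ht, Perm.mul_apply, swap_apply_left, swap_apply_of_ne_of_ne hpyx hpypx]
        · rw [ht, Perm.mul_apply, swap_apply_right, swap_apply_of_ne_of_ne hyx hypx, hp.invol]
      have ht2 : ∀ z, z ∉ D → t z = z := by
        intro z hz
        simp only [hD, Set.mem_insert_iff, Set.mem_singleton_iff, not_or] at hz
        rw [ht, Perm.mul_apply, swap_apply_of_ne_of_ne hz.2.2.1 hz.2.2.2, swap_apply_of_ne_of_ne hz.1 hz.2.1]
      have htK : t ∈ K := hK x y hpx hy.2 hyx hypx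
      have hht : h * t ∈ K := by
        refine ih _ hncF (F \ D) rfl ?_ ?_ ?_ (h * t) ?_ ?_
        · rintro z ⟨hz1, hz2⟩
          exact ⟨hF1 z hz1, fun h => hz2 (hDp' z h)⟩
        · rintro z ⟨hz1, hz2⟩
          exact hF2 z hz1
        · rintro z ⟨hz1, hz2⟩
          by_cases hzo : z ∈ MulAction.orbit P x
          · have hoz : MulAction.orbit P z = MulAction.orbit P x := MulAction.orbit_eq_iff.2 hzo
            rw [hoz]
            have e1 : (F \ D) ∩ MulAction.orbit P x = (F ∩ MulAction.orbit P x) \ D := by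
              ext w
              simp only [Set.mem_inter_iff, Set.mem_sdiff]
              tauto
            rw [e1, Set.ncard_sdiff hDF (Set.toFinite _), hDcard]
            exact Nat.dvd_sub (hF3 x hx) (dvd_refl 4)
          · have e1 : (F \ D) ∩ MulAction.orbit P z = F ∩ MulAction.orbit P z := by
              ext w
              simp only [Set.mem_inter_iff, Set.mem_sdiff]
              constructor
              · rintro ⟨⟨a, -⟩, b⟩; exact ⟨a, b⟩
              · rintro ⟨a, b⟩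
                refine ⟨⟨a, fun hw => ?_⟩, b⟩
                have h1 := (hDF hw).2
                have h2 : MulAction.orbit P w = MulAction.orbit P x := MulAction.orbit_eq_iff.2 h1
                have h3 : MulAction.orbit P w = MulAction.orbit P z := MulAction.orbit_eq_iff.2 b
                apply hzo
                rw [← h2, h3]
                exact MulAction.mem_orbit_self z
            rw [e1]
            exact hF3 z hz1
        · rintro z ⟨hz1, hz2⟩
          rw [Perm.mul_apply, ht2 z hz2, hh1 z hz1]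
        · intro z hz
          rw [Perm.mul_apply]
          by_cases hzD : z ∈ D
          · rw [ht1 z hzD, hh1 _ (hDF (hDp z hzD)).1, hp.invol]
          · rw [ht2 z hzD]
            exact hh2 z (fun h => hz ⟨h, hzD⟩)
      have e : h = (h * t) * t⁻¹ := by group
      rw [e]
      exact K.mul_mem hht (K.inv_mem htK)

end IsMatching

/-- a direct decomposition of the even part of `P` -/
structure Dec (P : Subgroup (Perm Ω)) (p : Ω → Ω) (S₁ S₂ : Subgroup (Perm Ω)) : Prop where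
  m : IsMatching P p
  two : IsPGroup 2 P
  le1 : ∀ a ∈ S₁, a ∈ P ∧ Perm.sign a = 1
  le2 : ∀ a ∈ S₂, a ∈ P ∧ Perm.sign a = 1
  comm : ∀ a ∈ S₁, ∀ b ∈ S₂, a * b = b * a
  inf : ∀ a, a ∈ S₁ → a ∈ S₂ → a = 1
  sup : ∀ g ∈ P, Perm.sign g = 1 → ∃ a ∈ S₁, ∃ b ∈ S₂, g = a * b

namespace Dec

variable {P : Subgroup (Perm Ω)} {p : Ω → Ω} {S₁ S₂ : Subgroup (Perm Ω)}

theorem symm (h : Dec P p S₁ S₂) : Dec P p S₂ S₁ where
  m := h.m
  two := h.two
  le1 := h.le2
  le2 := h.le1
  comm := fun a ha b hb => (h.comm b hb a ha).symm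
  inf := fun a ha hb => h.inf a hb ha
  sup := fun g hg hs => by
    obtain ⟨a, ha, b, hb, e⟩ := h.sup g hg hs
    exact ⟨b, hb, a, ha, by rw [e, h.comm a ha b hb]⟩

theorem cp1 (h : Dec P p S₁ S₂) {a : Perm Ω} (ha : a ∈ S₁) (x : Ω) : a (p x) = p (a x) := h.m.comm h.two (h.le1 a ha).1 x

theorem cp2 (h : Dec P p S₁ S₂) {a : Perm Ω} (ha : a ∈ S₂) (x : Ω) : a (p x) = p (a x) := h.m.comm h.two (h.le2 a ha).1 x

theorem cc (h : Dec P p S₁ S₂) {a b : Perm Ω} (ha : a ∈ S₁) (hb : b ∈ S₂) (x : Ω) : a (b x) = b (a x) := by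
  rw [← Perm.mul_apply, h.comm a ha b hb, Perm.mul_apply]

/-- Case I of the key step -/
theorem key_aux (h : Dec P p S₁ S₂) {x : Ω} (hx : p x ≠ x) {s₁ s₂ : Perm Ω} (h1 : s₁ ∈ S₁) (h2 : s₂ ∈ S₂)
    (ht : ∀ y ∈ MulAction.orbit P x, y ≠ x → y ≠ p x → s₁ (s₂ y) = y) (e1 : s₁ x = p x) (e2 : s₂ x = x)
    {a b : Perm Ω} (ha : a ∈ S₁) (hb : b ∈ S₂) (hax : a x ≠ x) (hax' : a x ≠ p x) (hbx : b x ≠ x) (hbx' : b x ≠ p x) :
    False := by
  have oa : a x ∈ MulAction.orbit P x := (mem_orbit_iff' P x _).2 ⟨a, (h.le1 a ha).1, rfl⟩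
  have ob : b x ∈ MulAction.orbit P x := (mem_orbit_iff' P x _).2 ⟨b, (h.le2 b hb).1, rfl⟩
  have oab : a (b x) ∈ MulAction.orbit P x := (orbit_inv P x (h.le1 a ha).1 _).2 ob
  have t1 := ht _ oa hax hax'
  rw [← h.cc ha h2, e2] at t1
  have t2 := ht _ ob hbx hbx'
  rw [h.cc h1 h2, h.cc h1 hb, e1, h.cp2 hb, h.cp2 h2] at t2
  have t3 : s₂ (b x) = p (b x) := by
    rw [← h.m.invol (s₂ (b x)), t2]
  have f1 : s₁ (a (b x)) = a (b x) := by
    rw [h.cc ha hb, h.cc h1 hb, t1]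
  have f2 : s₂ (a (b x)) = p (a (b x)) := by
    rw [← h.cc ha h2, t3, h.cp1 ha]
  by_cases g1 : a (b x) = x
  · rw [g1, e1] at f1
    exact hx f1
  · by_cases g2 : a (b x) = p x
    · rw [g2, h.cp1 h1, e1, h.m.invol] at f1
      exact hx f1.symm
    · have t4 := ht _ oab g1 g2
      rw [f2, h.cp1 h1, f1] at t4
      exact (h.m.ne_of_mem_orbit h.two hx oab) t4

/-- `S₂` fixes the pair of `x`, or `S₁` does -/
theorem key (h : Dec P p S₁ S₂) {x w : Ω} (hx : p x ≠ x) (hw : p w ≠ w) (hwx : w ∉ MulAction.orbit P x) :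
    (∀ b ∈ S₂, b x = x ∨ b x = p x) ∨ ∀ a ∈ S₁, a x = x ∨ a x = p x := by
  by_contra hcon
  push Not at hcon
  obtain ⟨⟨b, hb, hb1, hb2⟩, a, ha, ha1, ha2⟩ := hcon
  have hpw : p w ∉ MulAction.orbit P x := by
    intro h1
    apply hwx
    have h2 := h.m.orbit_p (p w)
    rw [h.m.invol, mem_orbit_iff'] at h2
    obtain ⟨g, hg, e⟩ := h2
    rw [← e, orbit_inv P x hg]
    exact h1
  have ox := MulAction.mem_orbit_self (M := P) x
  have opx := h.m.orbit_p x
  obtain ⟨s₁, h1, s₂, h2, ht⟩ := h.sup (swap x (p x) * swap w (p w)) (P.mul_mem (h.m.mem x) (h.m.mem w))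
    (h.m.sign_two hx hw)
  have n1 : x ≠ w := fun e => hwx (e ▸ ox)
  have n2 : x ≠ p w := fun e => hpw (e ▸ ox)
  have n3 : p x ≠ w := fun e => hwx (e ▸ opx)
  have n4 : p x ≠ p w := fun e => hpw (e ▸ opx)
  have ty : ∀ y ∈ MulAction.orbit P x, s₁ (s₂ y) = swap x (p x) y := by
    intro y hy
    have m1 : y ≠ w := fun e => hwx (e ▸ hy)
    have m2 : y ≠ p w := fun e => hpw (e ▸ hy)
    rw [← Perm.mul_apply, ← ht, Perm.mul_apply, swap_apply_of_ne_of_ne m1 m2]
  have tx : s₁ (s₂ x) = p x := by rw [ty x ox, swap_apply_left]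
  have ty' : ∀ y ∈ MulAction.orbit P x, y ≠ x → y ≠ p x → s₁ (s₂ y) = y := by
    intro y hy y1 y2
    rw [ty y hy, swap_apply_of_ne_of_ne y1 y2]
  -- `s₁ x ∈ {x, p x}`
  have s1x : s₁ x = x ∨ s₁ x = p x := by
    by_contra hn
    push Not at hn
    have o1 : s₁ x ∈ MulAction.orbit P x := (mem_orbit_iff' P x _).2 ⟨s₁, (h.le1 _ h1).1, rfl⟩
    have h3 := ty' _ o1 hn.1 hn.2
    rw [← h.cc h1 h2, tx] at h3
    exact hx (s₁.injective h3)
  rcases s1x with e | e
  · have e2 : s₂ x = p x := by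
      rw [h.cc h1 h2, e] at tx
      exact tx
    refine h.symm.key_aux hx h2 h1 (fun y hy y1 y2 => ?_) e2 e hb ha hb1 hb2 ha1 ha2
    rw [← h.cc h1 h2]
    exact ty' y hy y1 y2
  · have e2 : s₂ x = x := by
      apply s₁.injective
      rw [tx, e]
    exact h.key_aux hx h1 h2 ty' e e2 ha hb ha1 ha2 hb1 hb2

/-- an element of `P` may be corrected to be even without changing its value at `x` -/
theorem exists_even (m : IsMatching P p) {x w : Ω} (hw : p w ≠ w) (h1 : x ≠ w) (h2 : x ≠ p w) {g : Perm Ω} (hg : g ∈ P) :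
    ∃ g' ∈ P, Perm.sign g' = 1 ∧ g' x = g x := by
  rcases Int.units_eq_one_or (Perm.sign g) with h | h
  · exact ⟨g, hg, h, rfl⟩
  · refine ⟨g * swap w (p w), P.mul_mem hg (m.mem w), ?_, ?_⟩
    · rw [Perm.sign_mul, h, m.sign_swap hw]; norm_num
    · rw [Perm.mul_apply, swap_apply_of_ne_of_ne h1 h2]

/-- if `S₂` fixes the pair of `x`, each `b ∈ S₂` is constant on the orbit of `x` -/
theorem const (h : Dec P p S₁ S₂) {x w : Ω} (hx : p x ≠ x) (hw : p w ≠ w) (hwx : w ∉ MulAction.orbit P x)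
    (hS : ∀ b ∈ S₂, b x = x ∨ b x = p x) {y : Ω} (hy : y ∈ MulAction.orbit P x) :
    ∀ b ∈ S₂, (b x = x → b y = y) ∧ (b x = p x → b y = p y) := by
  rw [mem_orbit_iff'] at hy
  obtain ⟨g, hg, rfl⟩ := hy
  have ox := MulAction.mem_orbit_self (M := P) x
  have opx := h.m.orbit_p x
  have hpw : p w ∉ MulAction.orbit P x := by
    intro h1
    apply hwx
    have h2 := h.m.orbit_p (p w)
    rw [h.m.invol, mem_orbit_iff'] at h2
    obtain ⟨g, hg, e⟩ := h2
    rw [← e, orbit_inv P x hg]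
    exact h1
  have n1 : x ≠ w := fun e => hwx (e ▸ ox)
  have n2 : x ≠ p w := fun e => hpw (e ▸ ox)
  obtain ⟨g', hg', hs, e⟩ := exists_even h.m hw n1 n2 hg
  rw [← e]
  obtain ⟨a, ha, b', hb', rfl⟩ := h.sup g' hg' hs
  intro b hb
  have hb'x := hS b' hb'
  constructor
  · intro hbx
    rw [Perm.mul_apply, ← h.cc ha hb]
    congr 1
    rcases hb'x with e | e
    · rw [e, hbx]
    · rw [e, h.cp2 hb, hbx]
  · intro hbx
    rw [Perm.mul_apply, ← h.cc ha hb, ← h.cp1 ha]
    congr 1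
    rcases hb'x with e | e
    · rw [e, hbx]
    · rw [e, h.cp2 hb, hbx]

theorem not_both (h : Dec P p S₁ S₂) {x w : Ω} (hx : p x ≠ x) (hw : p w ≠ w) (hwx : w ∉ MulAction.orbit P x)
    (hbig : 4 ≤ (MulAction.orbit P x).ncard)
    (hS : ∀ b ∈ S₂, b x = x ∨ b x = p x) (hS' : ∀ a ∈ S₁, a x = x ∨ a x = p x) : False := by
  have hsub : MulAction.orbit P x ⊆ ({x, p x} : Set Ω) := by
    intro y hy
    rw [mem_orbit_iff'] at hy
    obtain ⟨g, hg, rfl⟩ := hy
    have ox := MulAction.mem_orbit_self (M := P) x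
    have hpw : p w ∉ MulAction.orbit P x := by
      intro h1
      apply hwx
      have h2 := h.m.orbit_p (p w)
      rw [h.m.invol, mem_orbit_iff'] at h2
      obtain ⟨g, hg, e⟩ := h2
      rw [← e, orbit_inv P x hg]
      exact h1
    have n1 : x ≠ w := fun e => hwx (e ▸ ox)
    have n2 : x ≠ p w := fun e => hpw (e ▸ ox)
    obtain ⟨g', hg', hs, e⟩ := exists_even h.m hw n1 n2 hg
    rw [← e]
    obtain ⟨a, ha, b, hb, rfl⟩ := h.sup g' hg' hs
    rw [Perm.mul_apply]
    rcases hS b hb with e1 | e1 <;> rcases hS' a ha with e2 | e2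
    · rw [e1, e2]; simp
    · rw [e1, e2]; simp
    · rw [e1, h.cp1 ha, e2]; simp
    · rw [e1, h.cp1 ha, e2, h.m.invol]; simp
  have h1 := Set.ncard_le_ncard hsub (Set.toFinite _)
  have h2 : ({x, p x} : Set Ω).ncard ≤ 2 := (Set.ncard_insert_le _ _).trans (by rw [Set.ncard_singleton])
  omega

theorem fixed (m : IsMatching P p) (hP : IsPGroup 2 P) {y : Ω} (hy : p y = y) {g : Perm Ω} (hg : g ∈ P) : g y = y := by
  have h1 := m.orbit_fixed hP hy
  have h2 : g y ∈ MulAction.orbit P y := (mem_orbit_iff' P y _).2 ⟨g, hg, rfl⟩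
  rw [h1] at h2
  exact h2

/-- orbits of the two types cannot both occur -/
theorem no_mixed (h : Dec P p S₁ S₂) (hbig : ∀ x, p x ≠ x → ∃ k, (MulAction.orbit P x).ncard = 4 * k)
    (hother : ∀ x, p x ≠ x → ∃ w, p w ≠ w ∧ w ∉ MulAction.orbit P x)
    {x w : Ω} (hx : p x ≠ x) (hw : p w ≠ w)
    (hS : ∀ b ∈ S₂, b x = x ∨ b x = p x) (hS' : ∀ a ∈ S₁, a w = w ∨ a w = p w) : False := by
  have hbig' : ∀ x, p x ≠ x → 4 ≤ (MulAction.orbit P x).ncard := by
    intro x hx
    obtain ⟨k, hk⟩ := hbig x hx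
    have h1 : 0 < (MulAction.orbit P x).ncard := (Set.ncard_pos (Set.toFinite _)).2 ⟨x, MulAction.mem_orbit_self x⟩
    omega
  have nb : ∀ y, p y ≠ y → (∀ b ∈ S₂, b y = y ∨ b y = p y) → (∀ a ∈ S₁, a y = y ∨ a y = p y) → False := by
    intro y hy h1 h2
    obtain ⟨v, hv, hvy⟩ := hother y hy
    exact h.not_both hy hv hvy (hbig' y hy) h1 h2
  have c2 : ∀ y z, p y ≠ y → (∀ b ∈ S₂, b y = y ∨ b y = p y) → z ∈ MulAction.orbit P y →
      ∀ b ∈ S₂, (b y = y → b z = z) ∧ (b y = p y → b z = p z) := by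
    intro y z hy h1 hz
    obtain ⟨v, hv, hvy⟩ := hother y hy
    exact h.const hy hv hvy h1 hz
  have c1 : ∀ y z, p y ≠ y → (∀ b ∈ S₁, b y = y ∨ b y = p y) → z ∈ MulAction.orbit P y →
      ∀ b ∈ S₁, (b y = y → b z = z) ∧ (b y = p y → b z = p z) := by
    intro y z hy h1 hz
    obtain ⟨v, hv, hvy⟩ := hother y hy
    exact h.symm.const hy hv hvy h1 hz
  obtain ⟨s₁, h1, s₂, h2, ht⟩ := h.sup (swap x (p x) * swap w (p w)) (P.mul_mem (h.m.mem x) (h.m.mem w))
    (h.m.sign_two hx hw)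
  set g : Perm Ω := swap x (p x) * s₁ with hg
  have hg' : g = swap w (p w) * s₂⁻¹ := by
    have : s₁ = swap x (p x) * swap w (p w) * s₂⁻¹ := by rw [ht]; group
    rw [hg, this, ← mul_assoc, ← mul_assoc, swap_mul_self, one_mul]
  have hgP : g ∈ P := P.mul_mem (h.m.mem x) (h.le1 _ h1).1
  -- values on the two types
  have v1 : ∀ y, p y ≠ y → (∀ b ∈ S₂, b y = y ∨ b y = p y) → g y = s₂⁻¹ y := by
    intro y hy hyS
    rw [hg', Perm.mul_apply]
    have n1 : y ≠ w := fun e => nb w hw (e ▸ hyS) hS'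
    have n2 : y ≠ p w := by
      intro e
      apply nb w hw _ hS'
      intro b hb
      have h3 := hyS b hb
      rw [e, h.cp2 hb, h.m.invol] at h3
      rcases h3 with h4 | h4
      · left; exact h.m.inj h4
      · right
        have := h.m.invol (b w)
        rw [h4] at this
        exact this.symm
    have n3 : p y ≠ w := fun e => n2 (by rw [← e, h.m.invol])
    have n4 : p y ≠ p w := fun e => n1 (h.m.inj e)
    rcases hyS _ (inv_mem h2) with e | e
    · rw [e, swap_apply_of_ne_of_ne n1 n2]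
    · rw [e, swap_apply_of_ne_of_ne n3 n4]
  have v2 : ∀ y, p y ≠ y → (∀ a ∈ S₁, a y = y ∨ a y = p y) → g y = s₁ y := by
    intro y hy hyS
    rw [hg, Perm.mul_apply]
    have n1 : y ≠ x := fun e => nb x hx hS (e ▸ hyS)
    have n2 : y ≠ p x := by
      intro e
      apply nb x hx hS
      intro b hb
      have h3 := hyS b hb
      rw [e, h.cp1 hb, h.m.invol] at h3
      rcases h3 with h4 | h4
      · left; exact h.m.inj h4
      · right
        have := h.m.invol (b x)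
        rw [h4] at this
        exact this.symm
    have n3 : p y ≠ x := fun e => n2 (by rw [← e, h.m.invol])
    have n4 : p y ≠ p x := fun e => n1 (h.m.inj e)
    rcases hyS _ h1 with e | e
    · rw [e, swap_apply_of_ne_of_ne n1 n2]
    · rw [e, swap_apply_of_ne_of_ne n3 n4]
  have ty : ∀ y, p y ≠ y → (∀ b ∈ S₂, b y = y ∨ b y = p y) ∨ ∀ a ∈ S₁, a y = y ∨ a y = p y := by
    intro y hy
    obtain ⟨v, hv, hvy⟩ := hother y hy
    exact h.key hy hv hvy
  have val : ∀ y, g y = y ∨ g y = p y := by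
    intro y
    by_cases hy : p y = y
    · left; exact fixed h.m h.two hy hgP
    · rcases ty y hy with h3 | h3
      · rw [v1 y hy h3]
        exact h3 _ (inv_mem h2)
      · rw [v2 y hy h3]
        exact h3 _ h1
  have cst : ∀ y z, p y ≠ y → z ∈ MulAction.orbit P y → g y = p y → g z = p z := by
    intro y z hy hz e
    have hz' := h.m.ne_of_mem_orbit h.two hy hz
    rcases ty y hy with h3 | h3
    · have h4 : ∀ b ∈ S₂, b z = z ∨ b z = p z := by
        intro b hb
        rcases h3 b hb with e | e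
        · exact Or.inl ((c2 y z hy h3 hz b hb).1 e)
        · exact Or.inr ((c2 y z hy h3 hz b hb).2 e)
      rw [v1 z hz' h4]
      rw [v1 y hy h3] at e
      exact (c2 y z hy h3 hz _ (inv_mem h2)).2 e
    · have h4 : ∀ b ∈ S₁, b z = z ∨ b z = p z := by
        intro b hb
        rcases h3 b hb with e | e
        · exact Or.inl ((c1 y z hy h3 hz b hb).1 e)
        · exact Or.inr ((c1 y z hy h3 hz b hb).2 e)
      rw [v2 z hz' h4]
      rw [v2 y hy h3] at e
      exact (c1 y z hy h3 hz _ h1).2 e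
  have hgA : g ∈ alternatingGroup Ω := by
    refine h.m.mem_closure_pairs h.two (alternatingGroup Ω) ?_ _ {y | p y ≠ y ∧ g y = p y} rfl ?_ ?_ ?_ g ?_ ?_
    · intro y z hy hz _ _
      rw [Perm.mem_alternatingGroup]
      exact h.m.sign_two hy (h.m.ne_of_mem_orbit h.two hy hz)
    · rintro y ⟨hy1, hy2⟩
      refine ⟨h.m.pp_ne hy1, ?_⟩
      rw [h.m.comm h.two hgP, hy2]
    · rintro y ⟨hy1, hy2⟩
      exact hy1
    · rintro y ⟨hy1, hy2⟩
      have : {y | p y ≠ y ∧ g y = p y} ∩ MulAction.orbit P y = MulAction.orbit P y := by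
        rw [Set.inter_eq_right]
        intro z hz
        exact ⟨h.m.ne_of_mem_orbit h.two hy1 hz, cst y z hy1 hz hy2⟩
      rw [this]
      obtain ⟨k, hk⟩ := hbig y hy1
      exact ⟨k, hk⟩
    · rintro y ⟨hy1, hy2⟩
      exact hy2
    · intro y hy
      rcases val y with e | e
      · exact e
      · by_cases hy' : p y = y
        · rw [e, hy']
        · exact absurd ⟨hy', e⟩ hy
  rw [Perm.mem_alternatingGroup, hg, Perm.sign_mul, h.m.sign_swap hx, (h.le1 _ h1).2] at hgA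
  norm_num at hgA

/-- if `S₂` fixes all pairs then it is trivial -/
theorem bot_of_all (P' : Sylow 2 (Perm Ω)) (h : Dec (P' : Subgroup (Perm Ω)) p S₁ S₂)
    (hbig : ∀ x, p x ≠ x → ∃ k, (MulAction.orbit (P' : Subgroup (Perm Ω)) x).ncard = 4 * k)
    (hother : ∀ x, p x ≠ x → ∃ w, p w ≠ w ∧ w ∉ MulAction.orbit (P' : Subgroup (Perm Ω)) x)
    (hall : ∀ x, p x ≠ x → ∀ b ∈ S₂, b x = x ∨ b x = p x) {b : Perm Ω} (hb : b ∈ S₂) : b = 1 := by
  have hall' : ∀ x, ∀ b ∈ S₂, b x = x ∨ b x = p x := by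
    intro x b hb
    by_cases hx : p x = x
    · left; exact fixed h.m h.two hx (h.le2 b hb).1
    · exact hall x hx b hb
  have hab : ∀ b ∈ S₂, ∀ c ∈ S₂, b * c = c * b := by
    intro b hb c hc
    ext y
    rw [Perm.mul_apply, Perm.mul_apply]
    rcases hall' y b hb with e | e <;> rcases hall' y c hc with e' | e'
    · rw [e, e', e]
    · rw [e, e', h.cp2 hb, e]
    · rw [e, e', h.cp2 hc, e', e]
    · rw [e, e', h.cp2 hb, h.cp2 hc, e, e']
  have hcomm : ∀ u ∈ (P' : Subgroup (Perm Ω)), Perm.sign u = 1 → ∀ k ∈ (P' : Subgroup (Perm Ω)), Perm.sign k = 1 →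
      u * k * u⁻¹ * k⁻¹ ∈ S₁ := by
    intro u hu hu1 k hk hk1
    obtain ⟨a1, ha1, b1, hb1, rfl⟩ := h.sup u hu hu1
    obtain ⟨a2, ha2, b2, hb2, rfl⟩ := h.sup k hk hk1
    have e : a1 * b1 * (a2 * b2) * (a1 * b1)⁻¹ * (a2 * b2)⁻¹ = a1 * a2 * a1⁻¹ * a2⁻¹ := by
      have c12 := h.comm a2 ha2 b1 hb1
      have c11 := h.comm a1⁻¹ (inv_mem ha1) b1⁻¹ (inv_mem hb1)
      have c22 := h.comm a2⁻¹ (inv_mem ha2) b2⁻¹ (inv_mem hb2)
      have d12 := h.comm a1⁻¹ (inv_mem ha1) b2 hb2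
      have d11 := h.comm a1⁻¹ (inv_mem ha1) b1 hb1
      have dd := hab b1 hb1 b2 hb2
      calc a1 * b1 * (a2 * b2) * (a1 * b1)⁻¹ * (a2 * b2)⁻¹
          = a1 * (b1 * a2) * b2 * (b1⁻¹ * a1⁻¹) * (b2⁻¹ * a2⁻¹) := by group
        _ = a1 * (a2 * b1) * b2 * (a1⁻¹ * b1⁻¹) * (a2⁻¹ * b2⁻¹) := by rw [c12, c11, c22]
        _ = a1 * a2 * b1 * (b2 * a1⁻¹) * b1⁻¹ * a2⁻¹ * b2⁻¹ := by group
        _ = a1 * a2 * b1 * (a1⁻¹ * b2) * b1⁻¹ * a2⁻¹ * b2⁻¹ := by rw [d12]
        _ = a1 * a2 * (b1 * a1⁻¹) * b2 * b1⁻¹ * a2⁻¹ * b2⁻¹ := by group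
        _ = a1 * a2 * (a1⁻¹ * b1) * b2 * b1⁻¹ * a2⁻¹ * b2⁻¹ := by rw [d11]
        _ = a1 * a2 * a1⁻¹ * (b1 * b2) * b1⁻¹ * a2⁻¹ * b2⁻¹ := by group
        _ = a1 * a2 * a1⁻¹ * (b2 * b1) * b1⁻¹ * a2⁻¹ * b2⁻¹ := by rw [dd]
        _ = a1 * a2 * a1⁻¹ * (b2 * a2⁻¹) * b2⁻¹ := by group
        _ = a1 * a2 * a1⁻¹ * (a2⁻¹ * b2) * b2⁻¹ := by rw [h.comm a2⁻¹ (inv_mem ha2) b2 hb2]
        _ = a1 * a2 * a1⁻¹ * a2⁻¹ := by group
    rw [e]
    exact S₁.mul_mem (S₁.mul_mem (S₁.mul_mem ha1 ha2) (inv_mem ha1)) (inv_mem ha2)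
  have hpairs : ∀ x y, p x ≠ x → y ∈ MulAction.orbit (P' : Subgroup (Perm Ω)) x → y ≠ x → y ≠ p x →
      swap x (p x) * swap y (p y) ∈ S₁ := by
    intro x y hx hy hyx hypx
    obtain ⟨w, hw, hwx⟩ := hother x hx
    obtain ⟨g, hg, hgx⟩ := (mem_orbit_iff' _ x _).1 hy
    obtain ⟨k₀, hk₀, hk1, hk2⟩ := exists_restrict P' (A := MulAction.orbit (P' : Subgroup (Perm Ω)) x)
      (fun g hg i => orbit_inv _ x hg i) hg
    have ox := MulAction.mem_orbit_self (M := (P' : Subgroup (Perm Ω))) x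
    have hpw : p w ∉ MulAction.orbit (P' : Subgroup (Perm Ω)) x := by
      intro h1
      apply hwx
      have h2 := h.m.orbit_p (p w)
      rw [h.m.invol, mem_orbit_iff'] at h2
      obtain ⟨g, hg, e⟩ := h2
      rw [← e, orbit_inv _ x hg]
      exact h1
    have n1 : x ≠ w := fun e => hwx (e ▸ ox)
    have n2 : x ≠ p w := fun e => hpw (e ▸ ox)
    obtain ⟨k, hk, hks, hkx, hkw⟩ : ∃ k ∈ (P' : Subgroup (Perm Ω)), Perm.sign k = 1 ∧ k x = y ∧
        (k w = w ∨ k w = p w) := by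
      rcases Int.units_eq_one_or (Perm.sign k₀) with hs | hs
      · exact ⟨k₀, hk₀, hs, by rw [hk1 x ox, hgx], Or.inl (hk2 w hwx)⟩
      · refine ⟨k₀ * swap w (p w), mul_mem hk₀ (h.m.mem w), ?_, ?_, Or.inr ?_⟩
        · rw [Perm.sign_mul, hs, h.m.sign_swap hw]; norm_num
        · rw [Perm.mul_apply, swap_apply_of_ne_of_ne n1 n2, hk1 x ox, hgx]
        · rw [Perm.mul_apply, swap_apply_left, hk2 _ hpw]
    have h3 := hcomm (swap x (p x) * swap w (p w)) (mul_mem (h.m.mem x) (h.m.mem w)) (h.m.sign_two hx hw) k hk hks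
    have hkpx : k (p x) = p y := by rw [h.m.comm h.two hk, hkx]
    have hkpw : swap (k w) (k (p w)) = swap w (p w) := by
      rw [h.m.comm h.two hk]
      rcases hkw with e | e
      · rw [e]
      · rw [e, h.m.invol, swap_comm]
    have e : swap x (p x) * swap w (p w) * k * (swap x (p x) * swap w (p w))⁻¹ * k⁻¹ = swap x (p x) * swap y (p y) := by
      have e1 : k * swap x (p x) * k⁻¹ = swap y (p y) := by rw [swap_conj, hkx, hkpx]
      have e2 : k * swap w (p w) * k⁻¹ = swap w (p w) := by rw [swap_conj, hkpw]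
      have e3 : (swap x (p x) * swap w (p w))⁻¹ = swap w (p w) * swap x (p x) := by
        rw [mul_inv_rev, swap_inv, swap_inv]
      rw [e3]
      calc swap x (p x) * swap w (p w) * k * (swap w (p w) * swap x (p x)) * k⁻¹
          = swap x (p x) * swap w (p w) * (k * swap w (p w) * k⁻¹) * (k * swap x (p x) * k⁻¹) := by group
        _ = swap x (p x) * (swap w (p w) * swap w (p w)) * swap y (p y) := by rw [e1, e2, mul_assoc (swap x (p x))]
        _ = swap x (p x) * swap y (p y) := by rw [swap_mul_self, mul_one]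
    rw [e] at h3
    exact h3
  apply h.inf b _ hb
  have hbP := (h.le2 b hb).1
  refine h.m.mem_closure_pairs h.two S₁ hpairs _ {y | p y ≠ y ∧ b y = p y} rfl ?_ ?_ ?_ b ?_ ?_
  · rintro y ⟨hy1, hy2⟩
    refine ⟨h.m.pp_ne hy1, ?_⟩
    rw [h.cp2 hb, hy2]
  · rintro y ⟨hy1, hy2⟩
    exact hy1
  · rintro y ⟨hy1, hy2⟩
    have : {y | p y ≠ y ∧ b y = p y} ∩ MulAction.orbit (P' : Subgroup (Perm Ω)) y =
        MulAction.orbit (P' : Subgroup (Perm Ω)) y := by
      rw [Set.inter_eq_right]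
      intro z hz
      obtain ⟨w, hw, hwy⟩ := hother y hy1
      exact ⟨h.m.ne_of_mem_orbit h.two hy1 hz, (h.const hy1 hw hwy (hall y hy1) hz b hb).2 hy2⟩
    rw [this]
    obtain ⟨k, hk⟩ := hbig y hy1
    exact ⟨k, hk⟩
  · rintro y ⟨hy1, hy2⟩
    exact hy2
  · intro y hy
    rcases hall' y b hb with e | e
    · exact e
    · by_cases hy' : p y = y
      · rw [e, hy']
      · exact absurd ⟨hy', e⟩ hy

/-- **all orbits of size divisible by 4 and at least two nontrivial orbits: `P ∩ Alt` is indecomposable** -/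
theorem trivial (P' : Sylow 2 (Perm Ω)) (h : Dec (P' : Subgroup (Perm Ω)) p S₁ S₂)
    (hbig : ∀ x, p x ≠ x → ∃ k, (MulAction.orbit (P' : Subgroup (Perm Ω)) x).ncard = 4 * k)
    (hother : ∀ x, p x ≠ x → ∃ w, p w ≠ w ∧ w ∉ MulAction.orbit (P' : Subgroup (Perm Ω)) x) :
    (∀ a ∈ S₁, a = 1) ∨ ∀ b ∈ S₂, b = 1 := by
  by_cases hall : ∀ x, p x ≠ x → ∀ b ∈ S₂, b x = x ∨ b x = p x
  · right
    intro b hb
    exact bot_of_all P' h hbig hother hall hb
  · left
    intro a ha
    refine bot_of_all P' h.symm hbig hother (fun x hx => ?_) ha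
    push Not at hall
    obtain ⟨w, hw, b, hb, hb1, hb2⟩ := hall
    obtain ⟨v, hv, hvx⟩ := hother x hx
    rcases h.key hx hv hvx with h1 | h1
    · exfalso
      obtain ⟨u, hu, huw⟩ := hother w hw
      rcases h.key hw hu huw with h2 | h2
      · rcases h2 b hb with e | e
        · exact hb1 e
        · exact hb2 e
      · exact h.no_mixed hbig hother hx hw h1 h2
    · exact h1

end Dec

end Cfsg.Agent.H94.Syl2Sym
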