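import Cfsg.Agent.H614.Chars
import Cfsg.Agent.H614.Degree
import Cfsg.Agent.H614.IndexTwo
import Cfsg.Agent.H794.ImcDown
import Cfsg.Agent.H33.Crit

/-!
# The alternating groups for S4526 (helper94)

`imc_alt` : for `5 ≤ n` and a prime `p` dividing `|A_n|`, some irreducible character of `A_n` of degree
divisible by `p` has a vector fixed by a Sylow `p`-subgroup.

The characters are those attached to the partitions `(n - a, 1 ^ a)`, `a = n % p`, `a ≥ 1`; `(n - 2, 2)` if
`p ∣ n` is odd; `(n - 3, 2, 1)` if `n` is even and `p = 2`. They take nonnegative values on `p`-elements.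
-/

set_option autoImplicit false

open Cfsg
open scoped ComplexConjugate

namespace Cfsg.Agent.H94.IMCAlt

open Finset Cfsg.Agent.H614 Cfsg.Agent.H625.SylConst Cfsg.Agent.H794.Imc Cfsg.Agent.Characters.Core

section FMlemmas

variable {m : ℕ}

theorem FM_dup (s : Multiset ℕ) {β : Fin m → ℕ} {i j : Fin m} (hij : i ≠ j) (h : β i = β j) :
    FM s β = 0 :=
  Alt.eq_zero_of_not_injective (fun w hw => by omega) (FM_alt s) (fun hi => hij (hi h))

/-- the rows below the first do not contribute -/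
def Low (κ : Fin m → ℕ) (r : ℕ) : Prop := 0 < r ∧ ∀ i, r ≤ κ i → ∃ j, κ j = κ i - r

theorem FM_step {κ : Fin m → ℕ} {r : ℕ} (hr : Low κ r) (s : Multiset ℕ) (T : ℕ) :
    FM (r ::ₘ s) (Fin.snoc κ T : Fin (m + 1) → ℕ) =
      if r ≤ T then FM s (Fin.snoc κ (T - r) : Fin (m + 1) → ℕ) else 0 := by
  rw [FM_cons, Fin.sum_univ_castSucc, Finset.sum_eq_zero, zero_add]
  · simp only [Fin.snoc_last]
    congr 1
    congr 1
    funext k
    refine Fin.lastCases ?_ (fun i => ?_) k
    · rw [dn_self, Fin.snoc_last, Fin.snoc_last]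
    · rw [dn_ne _ _ (Fin.castSucc_lt_last i).ne, Fin.snoc_castSucc, Fin.snoc_castSucc]
  · intro i _
    split_ifs with h
    · rw [Fin.snoc_castSucc] at h
      obtain ⟨j, hj⟩ := hr.2 i h
      have hji : j ≠ i := by
        rintro rfl
        have := hr.1
        omega
      refine FM_dup s (i := j.castSucc) (j := i.castSucc) (fun h' => hji (Fin.castSucc_injective _ h')) ?_
      rw [dn_self, dn_ne _ _ (fun h' => hji (Fin.castSucc_injective _ h')), Fin.snoc_castSucc,
        Fin.snoc_castSucc, hj]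
    · rfl

theorem FM_add {κ : Fin m → ℕ} {s : Multiset ℕ} (hs : ∀ r ∈ s, Low κ r) (t : Multiset ℕ) (T : ℕ) :
    FM (s + t) (Fin.snoc κ T : Fin (m + 1) → ℕ) =
      if s.sum ≤ T then FM t (Fin.snoc κ (T - s.sum) : Fin (m + 1) → ℕ) else 0 := by
  induction s using Multiset.induction_on generalizing T with
  | empty => simp
  | cons r s ih =>
    rw [Multiset.cons_add, FM_step (hs r (Multiset.mem_cons_self r s)), Multiset.sum_cons]
    have ih' := ih (fun q hq => hs q (Multiset.mem_cons_of_mem hq)) (T - r)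
    by_cases h1 : r ≤ T
    · rw [if_pos h1, ih']
      by_cases h2 : s.sum ≤ T - r
      · rw [if_pos h2, if_pos (by omega), Nat.sub_sub]
      · rw [if_neg h2, if_neg (by omega)]
    · rw [if_neg h1, if_neg (by omega)]

theorem strictMono_snoc {κ : Fin m → ℕ} (hκ : StrictMono κ) {T : ℕ} (h : ∀ i, κ i < T) :
    StrictMono (Fin.snoc κ T : Fin (m + 1) → ℕ) := by
  intro i j hij
  induction j using Fin.lastCases with
  | last =>
    induction i using Fin.lastCases with
    | last => exact absurd hij (lt_irrefl _)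
    | cast i => rw [Fin.snoc_last, Fin.snoc_castSucc]; exact h i
  | cast j =>
    induction i using Fin.lastCases with
    | last => exact absurd hij (not_lt.2 (Fin.le_last _))
    | cast i =>
      rw [Fin.snoc_castSucc, Fin.snoc_castSucc]
      exact hκ (Fin.castSucc_lt_castSucc_iff.1 hij)

theorem sum_snoc (κ : Fin m → ℕ) (T : ℕ) :
    ∑ i, (Fin.snoc κ T : Fin (m + 1) → ℕ) i = ∑ i, κ i + T := by
  rw [Fin.sum_univ_castSucc]
  simp only [Fin.snoc_castSucc, Fin.snoc_last]

end FMlemmas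

section Values

variable {m n : ℕ} {κ : Fin m → ℕ} {T : ℕ}

/-- the value on an element all of whose cycle lengths are `Low` -/
theorem ch_value {g : Equiv.Perm (Fin n)} (hg : ∀ r ∈ g.cycleType, Low κ r) :
    ch (Fin n) (Fin.snoc κ T : Fin (m + 1) → ℕ) g =
      ((if g.cycleType.sum ≤ T then FM (Multiset.replicate (n - g.cycleType.sum) 1)
        (Fin.snoc κ (T - g.cycleType.sum) : Fin (m + 1) → ℕ) else 0 : ℤ) : ℂ) := by
  rw [ch_apply, ty_eq, Fintype.card_fin, FM_add hg]

/-- nonnegative values -/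
theorem ch_nonneg (hκ : StrictMono κ) (hs : ∑ i, κ i + T = n + ∑ i : Fin (m + 1), (i : ℕ))
    {g : Equiv.Perm (Fin n)} (hg : ∀ r ∈ g.cycleType, Low κ r)
    (ht : g.cycleType.sum ≤ T → (∃ i, κ i = T - g.cycleType.sum) ∨ ∀ i, κ i < T - g.cycleType.sum) :
    ∃ k : ℕ, ch (Fin n) (Fin.snoc κ T : Fin (m + 1) → ℕ) g = k := by
  have hsum : g.cycleType.sum ≤ n := by
    have := g.sum_cycleType
    rw [this]
    exact (Finset.card_le_univ _).trans_eq (Fintype.card_fin n)
  rw [ch_value hg]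
  by_cases h : g.cycleType.sum ≤ T
  · rw [if_pos h]
    rcases ht h with ⟨i, hi⟩ | h1
    · refine ⟨0, ?_⟩
      rw [FM_dup _ (i := i.castSucc) (j := Fin.last m) (Fin.castSucc_lt_last i).ne (by
        rw [Fin.snoc_castSucc, Fin.snoc_last, hi])]
      simp
    · have h2 := FM_ones_pos (n - g.cycleType.sum) (strictMono_snoc hκ h1) (by
        rw [sum_snoc]; omega)
      refine ⟨(FM (Multiset.replicate (n - g.cycleType.sum) 1)
        (Fin.snoc κ (T - g.cycleType.sum) : Fin (m + 1) → ℕ)).toNat, ?_⟩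
      rw [← Int.cast_natCast, Int.toNat_of_nonneg h2.le]
  · exact ⟨0, by rw [if_neg h]; simp⟩

/-- positive values -/
theorem ch_ne_zero' (hκ : StrictMono κ) (hs : ∑ i, κ i + T = n + ∑ i : Fin (m + 1), (i : ℕ))
    {g : Equiv.Perm (Fin n)} (hg : ∀ r ∈ g.cycleType, Low κ r) (h : g.cycleType.sum ≤ T)
    (h1 : ∀ i, κ i < T - g.cycleType.sum) :
    ch (Fin n) (Fin.snoc κ T : Fin (m + 1) → ℕ) g ≠ 0 := by
  have hsum : g.cycleType.sum ≤ n := by
    have := g.sum_cycleType
    rw [this]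
    exact (Finset.card_le_univ _).trans_eq (Fintype.card_fin n)
  rw [ch_value hg, if_pos h]
  have h2 := FM_ones_pos (n - g.cycleType.sum) (strictMono_snoc hκ h1) (by rw [sum_snoc]; omega)
  exact_mod_cast h2.ne'

/-- the value is zero -/
theorem ch_eq_zero {g : Equiv.Perm (Fin n)} (hg : ∀ r ∈ g.cycleType, Low κ r)
    (h : g.cycleType.sum ≤ T → ∃ i, κ i = T - g.cycleType.sum) :
    ch (Fin n) (Fin.snoc κ T : Fin (m + 1) → ℕ) g = 0 := by
  rw [ch_value hg]
  by_cases h' : g.cycleType.sum ≤ T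
  · obtain ⟨i, hi⟩ := h h'
    rw [if_pos h', FM_dup _ (i := i.castSucc) (j := Fin.last m) (Fin.castSucc_lt_last i).ne (by
        rw [Fin.snoc_castSucc, Fin.snoc_last, hi])]
    simp
  · rw [if_neg h']; simp

end Values

section Main

variable {n p : ℕ} [hp : Fact p.Prime]

/-- cycle lengths of `p`-elements -/
theorem cycleType_of {g : Equiv.Perm (Fin n)} (hg : ∃ k : ℕ, orderOf g = p ^ k) {r : ℕ} (hr : r ∈ g.cycleType) :
    2 ≤ r ∧ p ∣ r ∧ ∃ k : ℕ, r = p ^ k := by
  obtain ⟨k, hk⟩ := hg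
  have h2 := Equiv.Perm.two_le_of_mem_cycleType hr
  have h1 : r ∣ p ^ k := by
    rw [← hk]
    exact Equiv.Perm.dvd_of_mem_cycleType hr
  obtain ⟨i, -, rfl⟩ := (Nat.dvd_prime_pow hp.out).1 h1
  refine ⟨h2, ?_, i, rfl⟩
  rcases Nat.eq_zero_or_pos i with rfl | hi
  · simp at h2
  · exact dvd_pow_self p hi.ne'

theorem dvd_sum {g : Equiv.Perm (Fin n)} (hg : ∃ k : ℕ, orderOf g = p ^ k) : p ∣ g.cycleType.sum :=
  Multiset.dvd_sum fun _ hr => (cycleType_of hg hr).2.1

theorem sum_le (g : Equiv.Perm (Fin n)) : g.cycleType.sum ≤ n := by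
  rw [g.sum_cycleType]
  exact (Finset.card_le_univ _).trans_eq (Fintype.card_fin n)

theorem exists_elt {w : ℕ} (h : p * w ≤ n) :
    ∃ z : Equiv.Perm (Fin n), z.cycleType = Multiset.replicate w p ∧ ∃ k : ℕ, orderOf z = p ^ k := by
  have h1 : ∃ z : Equiv.Perm (Fin n), z.cycleType = Multiset.replicate w p := by
    rw [Equiv.Perm.exists_with_cycleType_iff]
    refine ⟨by simpa [mul_comm] using h, fun a ha => ?_⟩
    rw [Multiset.eq_of_mem_replicate ha]
    exact hp.out.two_le
  obtain ⟨z, hz⟩ := h1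
  refine ⟨z, hz, ?_⟩
  have h2 : orderOf z ∣ p ^ 1 := by
    rw [← Equiv.Perm.lcm_cycleType, hz, pow_one, Multiset.lcm_dvd]
    intro b hb
    rw [Multiset.eq_of_mem_replicate hb]
  obtain ⟨i, -, hi⟩ := (Nat.dvd_prime_pow hp.out).1 h2
  exact ⟨i, hi⟩

theorem exists_transposition (hn : 2 ≤ n) : ∃ g : Equiv.Perm (Fin n), g ∉ alternatingGroup (Fin n) ∧
    g.cycleType = {2} := by
  have h0 : (⟨0, by omega⟩ : Fin n) ≠ ⟨1, by omega⟩ := by simp
  have h1 := Equiv.Perm.isSwap_iff_cycleType.1 ⟨_, _, h0, rfl⟩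
  refine ⟨Equiv.swap (⟨0, by omega⟩ : Fin n) ⟨1, by omega⟩, ?_, h1⟩
  rw [Equiv.Perm.mem_alternatingGroup, Equiv.Perm.sign_swap h0]
  decide

/-- from the symmetric to the alternating group -/
theorem imc_alt_of (hn : 2 ≤ n) {χ : Equiv.Perm (Fin n) → ℂ} (hχ : IsIrrCharacter (Equiv.Perm (Fin n)) χ)
    (hv : ∀ g : Equiv.Perm (Fin n), (∃ k : ℕ, orderOf g = p ^ k) → ∃ k : ℕ, χ g = k)
    (hd : p ∣ charDegree χ)
    (hns : p = 2 → (∃ g, g ∉ alternatingGroup (Fin n) ∧ χ g ≠ 0) ∨ 4 ∣ charDegree χ) :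
    IMC p (alternatingGroup (Fin n)) := by
  classical
  have : Nontrivial (Fin n) := Fin.nontrivial_iff_two_le.2 hn
  obtain ⟨P⟩ : Nonempty (Sylow p (alternatingGroup (Fin n))) := inferInstance
  obtain ⟨d, hd0, hd1⟩ := isIrr_apply_one hχ
  have hcd : charDegree χ = d := H670.PSing.charDegree_eq_of hd1
  -- the sum over the Sylow subgroup
  have hf : Fix (P : Subgroup (alternatingGroup (Fin n))) (χ ∘ (alternatingGroup (Fin n)).subtype) := by
    rw [fix_iff]
    have h1 : ∀ z : P, ∃ k : ℕ, χ ((z : alternatingGroup (Fin n)) : Equiv.Perm (Fin n)) = k := by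
      intro z
      apply hv
      obtain ⟨k, hk⟩ := IsPGroup.iff_orderOf.1 P.isPGroup' z
      exact ⟨k, by rw [Subgroup.orderOf_coe, Subgroup.orderOf_coe, hk]⟩
    choose f hf using h1
    have h2 : ∑ z : P, (χ ∘ (alternatingGroup (Fin n)).subtype) (z : alternatingGroup (Fin n)) =
        ((∑ z : P, f z : ℕ) : ℂ) := by
      rw [Nat.cast_sum]
      exact Finset.sum_congr rfl fun z _ => hf z
    rw [h2]
    have h3 : f 1 = d := by
      have := hf 1
      rw [OneMemClass.coe_one, OneMemClass.coe_one, hd1] at this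
      exact_mod_cast this.symm
    have h4 : f 1 ≤ ∑ z : P, f z := Finset.single_le_sum (fun z _ => Nat.zero_le _) (Finset.mem_univ 1)
    have h5 : ∑ z : P, f z ≠ 0 := by omega
    exact_mod_cast h5
  have hα : IsCharacter (alternatingGroup (Fin n)) (χ ∘ (alternatingGroup (Fin n)).subtype) :=
    isCharacter_comp _ (isIrr_isCharacter hχ)
  obtain ⟨θ, h1, h2⟩ := exists_fix_of_char (P : Subgroup (alternatingGroup (Fin n))) hα hf
  refine ⟨θ, P, ?_, h2⟩
  obtain ⟨e, he0, he1⟩ := isIrr_apply_one θ.2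
  have hce : charDegree (θ : alternatingGroup (Fin n) → ℂ) = e := H670.PSing.charDegree_eq_of he1
  rw [hce]
  rw [hcd] at hd hns
  rcases restrict_two (alternatingGroup (Fin n)) alternatingGroup.index_eq_two hχ θ.2 h1 with h | ⟨h, h'⟩
  · have h3 := h 1
    rw [OneMemClass.coe_one, hd1, he1] at h3
    have h4 : d = e := by exact_mod_cast h3
    exact h4 ▸ hd
  · rw [hd1, he1] at h
    have h3 : d = 2 * e := by exact_mod_cast h
    by_cases h2' : p = 2
    · rcases hns h2' with ⟨g, hg, hg'⟩ | h4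
      · exact absurd (h' g hg) hg'
      · subst h2'
        omega
    · rw [h3] at hd
      exact (Nat.Coprime.dvd_mul_left ((Nat.coprime_primes hp.out Nat.prime_two).2 h2')).1 hd

/-- the general pattern -/
theorem imc_alt_of_tuple (hn : 2 ≤ n) {m : ℕ} {κ : Fin m → ℕ} {T : ℕ} (hκ : StrictMono κ)
    (hs : ∑ i, κ i + T = n + ∑ i : Fin (m + 1), (i : ℕ)) (hT : ∀ i, κ i < T)
    (hlow : ∀ r : ℕ, 2 ≤ r → p ∣ r → (∃ k, r = p ^ k) → Low κ r)
    (ht : ∀ s : ℕ, p ∣ s → s ≤ n → s ≤ T → (∃ i, κ i = T - s) ∨ ∀ i, κ i < T - s)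
    (hz : p * (n / p) ≤ T → ∃ i, κ i = T - p * (n / p))
    (hns : p = 2 → (∃ g, g ∉ alternatingGroup (Fin n) ∧
        ch (Fin n) (Fin.snoc κ T : Fin (m + 1) → ℕ) g ≠ 0) ∨
      4 ∣ charDegree (ch (Fin n) (Fin.snoc κ T : Fin (m + 1) → ℕ))) :
    IMC p (alternatingGroup (Fin n)) := by
  have hirr : IsIrrCharacter (Equiv.Perm (Fin n)) (ch (Fin n) (Fin.snoc κ T : Fin (m + 1) → ℕ)) :=
    isIrr_ch (strictMono_snoc hκ hT) (by rw [sum_snoc, Fintype.card_fin, hs])
  have hl : ∀ g : Equiv.Perm (Fin n), (∃ k : ℕ, orderOf g = p ^ k) → ∀ r ∈ g.cycleType, Low κ r := by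
    intro g hg r hr
    obtain ⟨h1, h2, h3⟩ := cycleType_of hg hr
    exact hlow r h1 h2 h3
  refine imc_alt_of hn hirr (fun g hg => ?_) ?_ hns
  · exact ch_nonneg hκ hs (hl g hg) (fun h => ht _ (dvd_sum hg) (sum_le g) h)
  · obtain ⟨z, hz1, hz2⟩ := exists_elt (p := p) (n := n) (w := n / p) (Nat.mul_div_le n p)
    refine S4558.result p _ (isIrr_isCharacter hirr) z hz2 (ch_eq_zero (hl z hz2) ?_)
    have h1 : z.cycleType.sum = p * (n / p) := by
      rw [hz1, Multiset.sum_replicate, smul_eq_mul, mul_comm]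
    rw [h1]
    exact hz

/-- `n` not divisible by `p` -/
theorem imc_hook (hn : 5 ≤ n) (hpn : p ≤ n) (h0 : ¬ p ∣ n) : IMC p (alternatingGroup (Fin n)) := by
  have hpp := hp.out.two_le
  have ha : n % p < p := Nat.mod_lt _ (by omega)
  have ha0 : 0 < n % p := Nat.pos_of_ne_zero (fun h => h0 (Nat.dvd_of_mod_eq_zero h))
  have hsum : ∀ a : ℕ, ∑ i : Fin a, ((i : ℕ) + 1) = ∑ i : Fin (a + 1), (i : ℕ) := by
    intro a
    rw [Fin.sum_univ_succ]
    simp
  refine imc_alt_of_tuple (m := n % p) (κ := fun i => (i : ℕ) + 1) (T := n) (by omega)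
    (fun i j hij => by simpa using hij) (by rw [hsum]; omega) (fun i => by have := i.2; omega) ?_ ?_ ?_ ?_
  · intro r hr2 hpr _
    have hr : p ≤ r := Nat.le_of_dvd (by omega) hpr
    exact ⟨by omega, fun i hi => by have := i.2; simp only at hi; omega⟩
  · intro s hps hsn _
    obtain ⟨c, rfl⟩ := hps
    have h1 : (n - p * c) % p = n % p := by
      conv_rhs => rw [← Nat.sub_add_cancel hsn, Nat.add_mul_mod_self_left]
    by_cases h2 : n - p * c = n % p
    · left
      exact ⟨⟨n % p - 1, by omega⟩, by simp only; omega⟩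
    · right
      intro i
      have := i.2
      have h3 : n % p ≤ n - p * c := by rw [← h1]; exact Nat.mod_le _ _
      omega
  · intro _
    refine ⟨⟨n % p - 1, by omega⟩, ?_⟩
    simp only
    have := Nat.div_add_mod n p
    omega
  · rintro rfl
    left
    obtain ⟨g, hg, hg2⟩ := exists_transposition (n := n) (by omega)
    refine ⟨g, hg, ?_⟩
    refine ch_ne_zero' (κ := fun i : Fin (n % 2) => (i : ℕ) + 1) (fun i j hij => by simpa using hij)
      (by rw [hsum]; omega) ?_ ?_ ?_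
    · intro r hr
      rw [hg2, Multiset.mem_singleton] at hr
      subst hr
      exact ⟨by omega, fun i hi => by have := i.2; simp only at hi; omega⟩
    · rw [hg2, Multiset.sum_singleton]; omega
    · intro i
      have := i.2
      rw [hg2, Multiset.sum_singleton]; omega

/-- `n` divisible by the odd prime `p` -/
theorem imc_two_row (hn : 5 ≤ n) (hp2 : p ≠ 2) (h0 : p ∣ n) : IMC p (alternatingGroup (Fin n)) := by
  have hpp : 3 ≤ p := by
    have := hp.out.two_le
    omega
  refine imc_alt_of_tuple (m := 1) (κ := fun _ => 2) (T := n - 1) (by omega)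
    (fun i j hij => by omega) (by simp [Fin.sum_univ_succ]; omega) (fun i => by omega) ?_ ?_ ?_ ?_
  · intro r hr2 hpr _
    have hr : p ≤ r := Nat.le_of_dvd (by omega) hpr
    exact ⟨by omega, fun i hi => by simp only at hi; omega⟩
  · intro s hps hsn hsT
    have h1 : p ∣ n - s := Nat.dvd_sub h0 hps
    have h2 : p ≤ n - s := Nat.le_of_dvd (by omega) h1
    by_cases h3 : n - 1 - s = 2
    · exact Or.inl ⟨0, h3.symm⟩
    · exact Or.inr fun i => by omega
  · intro h
    rw [Nat.mul_div_cancel' h0] at h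
    omega
  · intro h
    exact absurd h hp2

/-- `p = 2`, `n` even -/
theorem imc_two_even [Fact (Nat.Prime 2)] (hn : 5 ≤ n) (h0 : 2 ∣ n) : IMC 2 (alternatingGroup (Fin n)) := by
  have hκ : StrictMono (![1, 3] : Fin 2 → ℕ) := by
    intro i j hij
    fin_cases i <;> fin_cases j <;> simp_all
  refine imc_alt_of_tuple (m := 2) (κ := ![1, 3]) (T := n - 1) (by omega) hκ
    (by simp [Fin.sum_univ_succ]; omega) (fun i => by fin_cases i <;> simp <;> omega) ?_ ?_ ?_ ?_
  · rintro r hr2 hpr ⟨k, rfl⟩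
    refine ⟨by omega, fun i hi => ?_⟩
    obtain ⟨c, hc⟩ := hpr
    fin_cases i
    · simp at hi; omega
    · simp at hi
      refine ⟨0, ?_⟩
      simp
      omega
  · intro s hps hsn hsT
    obtain ⟨c, rfl⟩ := hps
    obtain ⟨d, rfl⟩ := h0
    by_cases h1 : 2 * d - 1 - 2 * c = 1
    · exact Or.inl ⟨0, h1.symm⟩
    · by_cases h2 : 2 * d - 1 - 2 * c = 3
      · exact Or.inl ⟨1, h2.symm⟩
      · refine Or.inr fun i => ?_
        fin_cases i <;> simp <;> omega
  · intro h
    rw [Nat.mul_div_cancel' h0] at h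
    omega
  · intro _
    rcases Nat.lt_or_ge n 8 with h8 | h8
    · obtain rfl : n = 6 := by omega
      right
      have h1 : ch (Fin 6) (Fin.snoc ![1, 3] (6 - 1) : Fin 3 → ℕ) 1 = (16 : ℕ) := by
        rw [ch_apply, ty_one, Fintype.card_fin]
        have h2 := FM_ones_formula 6 (Fin.snoc ![1, 3] (6 - 1) : Fin 3 → ℕ) (by decide)
        have h3 : (∏ i, (((Fin.snoc ![1, 3] (6 - 1) : Fin 3 → ℕ) i).factorial : ℤ)) = 720 := by decide +kernel
        have h4 : ((Nat.factorial 6 : ℕ) : ℤ) * ∏ i : Fin 3, ∏ j ∈ Finset.Ioi i,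
          (((Fin.snoc ![1, 3] (6 - 1) : Fin 3 → ℕ) j : ℤ) - (Fin.snoc ![1, 3] (6 - 1) : Fin 3 → ℕ) i) = 11520 := by
            decide +kernel
        rw [h3, h4] at h2
        have h5 : FM (Multiset.replicate 6 1) (Fin.snoc ![1, 3] (6 - 1) : Fin 3 → ℕ) = 16 := by omega
        rw [h5]
        norm_num
      rw [H670.PSing.charDegree_eq_of h1]
      norm_num
    · left
      obtain ⟨g, hg, hg2⟩ := exists_transposition (n := n) (by omega)
      refine ⟨g, hg, ch_ne_zero' hκ (by simp [Fin.sum_univ_succ]; omega) ?_ ?_ ?_⟩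
      · intro r hr
        rw [hg2, Multiset.mem_singleton] at hr
        subst hr
        refine ⟨by omega, fun i hi => ?_⟩
        fin_cases i
        · simp at hi
        · exact ⟨0, by simp⟩
      · rw [hg2, Multiset.sum_singleton]; omega
      · intro i
        rw [hg2, Multiset.sum_singleton]
        fin_cases i <;> simp <;> omega

theorem le_of_dvd_card (h : p ∣ Nat.card (alternatingGroup (Fin n))) : p ≤ n := by
  have h1 : Nat.card (alternatingGroup (Fin n)) ∣ Nat.card (Equiv.Perm (Fin n)) := Subgroup.card_subgroup_dvd_card _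
  have h2 := h.trans h1
  rw [Nat.card_eq_fintype_card, Fintype.card_perm, Fintype.card_fin] at h2
  exact (hp.out.dvd_factorial).1 h2

/-- **The alternating groups.** -/
theorem imc_alt (hn : 5 ≤ n) (h : p ∣ Nat.card (alternatingGroup (Fin n))) :
    IMC p (alternatingGroup (Fin n)) := by
  by_cases h0 : p ∣ n
  · by_cases h2 : p = 2
    · subst h2
      exact imc_two_even hn h0
    · exact imc_two_row hn h2 h0
  · exact imc_hook hn (le_of_dvd_card h) h0

end Main

end Cfsg.Agent.H94.IMCAlt
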