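import Cfsg.Agent.H94.IMCPermTwo
import Cfsg.Agent.H852.IMMathieu2

/-!
# The Mathieu groups for S4526 (helper94)

`imc_m11`, `imc_m12`, `imc_m23`, `imc_m24` (all primes), `imc_m22_odd` (`p ≠ 2`).
-/

set_option autoImplicit false
open scoped Pointwise
open Cfsg

namespace Cfsg.Agent.H94.IMCMathieu

open Cfsg.Agent.H625.SylConst Cfsg.Agent.H794.Imc Cfsg.Agent.H94.IMCPerm Cfsg.Agent.H852.IMMathieu

universe u

theorem imc_m11 {S : Type u} [Group S] [Finite S] (h : Spor.IsoM11 S) {p : ℕ} [hp' : Fact p.Prime]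
    (hp : p ∣ Nat.card S) : IMC p S := by
  obtain ⟨e⟩ := h
  rw [Nat.card_congr e.toEquiv, card_M11] at hp
  have hm := prime_cases hp'.out [2, 2, 2, 2, 3, 3, 5, 11] (by decide) hp (by decide)
  have : Finite Spor.M11 := Finite.of_equiv S e.toEquiv
  refine IMC.of_equiv e ?_
  refine imc_perm_four Spor.M11 ((Spor.squareDodecad : Set GolayPt) \ {some 0}) ?_ 4 ?_ le_rfl (n := 11) ?_ (by norm_num) ?_
  · intro g hg x hx
    refine ⟨Cfsg.Agent.CoThreeStd.M12.smul_mem' hg.1 hx.1, fun h1 => hx.2 ?_⟩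
    have h2 : g (some 0) = some 0 := hg.2
    exact g.injective ((show g x = some 0 from h1).trans h2.symm)
  · intro x y hx hy
    have hinj : ∀ z : Fin 4 ↪ GolayPt, (∀ i, z i ∈ (Spor.squareDodecad : Set GolayPt) \ {some 0}) →
        Function.Injective (Fin.cons (some 0) z : Fin 5 → GolayPt) := by
      intro z hz
      rw [Fin.cons_injective_iff]
      refine ⟨?_, z.injective⟩
      rintro ⟨i, hi⟩
      exact (hz i).2 hi
    have hmem : ∀ z : Fin 4 ↪ GolayPt, (∀ i, z i ∈ (Spor.squareDodecad : Set GolayPt) \ {some 0}) →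
        ∀ i, (Fin.cons (some 0) z : Fin 5 → GolayPt) i ∈ Spor.squareDodecad := by
      intro z hz i
      refine Fin.cases ?_ (fun j => ?_) i
      · exact zero_mem
      · exact (hz j).1
    obtain ⟨g, hg, -⟩ := Cfsg.Agent.S0384.result _ dod_mem ⟨_, hinj x hx⟩ ⟨_, hinj y hy⟩ (hmem x hx) (hmem y hy)
    exact ⟨((g : M24) : Equiv.Perm GolayPt), ⟨⟨(g : M24).2, g.2⟩, hg 0⟩, fun i => hg i.succ⟩
  · rw [Nat.card_coe_set_eq, Set.ncard_diff_singleton_of_mem (by exact zero_mem), Set.ncard_coe_finset,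
      card_dod dod_mem]
  · simp only [List.mem_cons, List.not_mem_nil, or_false] at hm
    rcases hm with rfl | rfl | rfl | rfl | rfl | rfl | rfl | rfl <;> decide

theorem imc_m12 {S : Type u} [Group S] [Finite S] (h : Spor.IsoM12 S) {p : ℕ} [hp' : Fact p.Prime]
    (hp : p ∣ Nat.card S) : IMC p S := by
  obtain ⟨e⟩ := h
  rw [Nat.card_congr e.toEquiv, card_M12] at hp
  have hm := prime_cases hp'.out [2, 2, 2, 2, 2, 2, 3, 3, 3, 5, 11] (by decide) hp (by decide)
  have : Finite Spor.M12 := Finite.of_equiv S e.toEquiv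
  refine IMC.of_equiv e ?_
  refine imc_perm_four Spor.M12 (Spor.squareDodecad : Set GolayPt) ?_ 5 ?_ (by norm_num) (n := 12) ?_ (by norm_num) ?_
  · intro g hg x hx
    exact Cfsg.Agent.CoThreeStd.M12.smul_mem' hg hx
  · intro x y hx hy
    obtain ⟨g, hg, -⟩ := Cfsg.Agent.S0384.result _ dod_mem x y hx hy
    exact ⟨((g : M24) : Equiv.Perm GolayPt), ⟨(g : M24).2, g.2⟩, hg⟩
  · rw [Nat.card_coe_set_eq, Set.ncard_coe_finset, card_dod dod_mem]
  · simp only [List.mem_cons, List.not_mem_nil, or_false] at hm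
    rcases hm with rfl | rfl | rfl | rfl | rfl | rfl | rfl | rfl | rfl | rfl | rfl <;> decide

theorem imc_m23 {S : Type u} [Group S] [Finite S] (h : Spor.IsoM23 S) {p : ℕ} [hp' : Fact p.Prime]
    (hp : p ∣ Nat.card S) : IMC p S := by
  obtain ⟨e⟩ := h
  rw [Nat.card_congr e.toEquiv, card_M23] at hp
  have hm := prime_cases hp'.out [2, 2, 2, 2, 2, 2, 2, 3, 3, 5, 7, 11, 23] (by decide) hp (by decide)
  have : Finite Spor.M23 := Finite.of_equiv S e.toEquiv
  refine IMC.of_equiv e ?_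
  refine imc_perm_four Spor.M23 {x | x ≠ none} ?_ 4 ?_ le_rfl (n := 23) ?_ (by norm_num) ?_
  · intro g hg x hx h1
    have h2 : g none = none := hg.2
    exact hx (g.injective (h1.trans h2.symm))
  · intro x y hx hy
    have hinj : ∀ z : Fin 4 ↪ GolayPt, (∀ i, z i ∈ {x : GolayPt | x ≠ none}) →
        Function.Injective (Fin.cons none z : Fin 5 → GolayPt) := by
      intro z hz
      rw [Fin.cons_injective_iff]
      refine ⟨?_, z.injective⟩
      rintro ⟨i, hi⟩
      exact hz i hi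
    obtain ⟨g, hg⟩ := Cfsg.Agent.SporadicStructure.M23Index253.exists_map Cfsg.Agent.S0366.result le_rfl _ _
      (hinj x hx) (hinj y hy)
    exact ⟨(g : Equiv.Perm GolayPt), ⟨g.2, hg 0⟩, fun i => hg i.succ⟩
  · have h1 : ({x | x ≠ none} : Set GolayPt) = Set.univ \ {none} := by
      ext x
      simp
    rw [Nat.card_coe_set_eq, h1, Set.ncard_diff_singleton_of_mem (Set.mem_univ _), Set.ncard_univ,
      Nat.card_eq_fintype_card]
    decide
  · simp only [List.mem_cons, List.not_mem_nil, or_false] at hm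
    rcases hm with rfl | rfl | rfl | rfl | rfl | rfl | rfl | rfl | rfl | rfl | rfl | rfl | rfl <;> decide

theorem imc_m24 {S : Type u} [Group S] [Finite S] (h : Spor.IsoM24 S) {p : ℕ} [hp' : Fact p.Prime]
    (hp : p ∣ Nat.card S) : IMC p S := by
  by_cases h5 : p = 5
  · subst h5
    refine imc_of_exact hp ?_ (im_m24 h hp)
    obtain ⟨e⟩ := h
    rw [Nat.card_congr e.toEquiv, Cfsg.Agent.S0364.result]
    decide
  obtain ⟨e⟩ := h
  rw [Nat.card_congr e.toEquiv, Cfsg.Agent.S0364.result] at hp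
  have hm := prime_cases hp'.out [2, 2, 2, 2, 2, 2, 2, 2, 2, 2, 3, 3, 3, 5, 7, 11, 23] (by decide) hp (by decide)
  have : Finite M24 := Finite.of_equiv S e.toEquiv
  refine IMC.of_equiv e ?_
  refine imc_perm_four M24 Set.univ ?_ 5 ?_ (by norm_num) (n := 24) ?_ (by norm_num) ?_
  · intro g _ x _
    trivial
  · intro x y _ _
    obtain ⟨g, hg⟩ := Cfsg.Agent.SporadicStructure.M23Index253.exists_map Cfsg.Agent.S0366.result le_rfl _ _
      x.injective y.injective
    exact ⟨(g : Equiv.Perm GolayPt), g.2, hg⟩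
  · rw [Nat.card_coe_set_eq, Set.ncard_univ, Nat.card_eq_fintype_card]
    decide
  · simp only [List.mem_cons, List.not_mem_nil, or_false] at hm
    rcases hm with rfl | rfl | rfl | rfl | rfl | rfl | rfl | rfl | rfl | rfl | rfl | rfl | rfl | rfl | rfl | rfl | rfl <;>
      first | (exact absurd rfl h5) | decide

theorem imc_m22_odd {S : Type u} [Group S] [Finite S] (h : Spor.IsoM22 S) {p : ℕ} [hp' : Fact p.Prime]
    (hp : p ∣ Nat.card S) (h2 : p ≠ 2) : IMC p S := by
  by_cases h3 : p = 3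
  · subst h3
    obtain ⟨e⟩ := h
    have : Finite Spor.M22 := Finite.of_equiv S e.toEquiv
    refine IMC.of_equiv e ?_
    let _ := actSub XH hXH
    refine imc_of_r3_chk r3_hexads (by decide) (Or.inr ?_) (by decide +kernel)
    rw [card_M22]
    decide
  · refine imc_of_exact hp ?_ (im_m22 h hp)
    obtain ⟨e⟩ := h
    rw [Nat.card_congr e.toEquiv, card_M22] at hp ⊢
    have hm := prime_cases hp'.out [2, 2, 2, 2, 2, 2, 2, 3, 3, 5, 7, 11] (by decide) hp (by decide)
    simp only [List.mem_cons, List.not_mem_nil, or_false] at hm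
    rcases hm with rfl | rfl | rfl | rfl | rfl | rfl | rfl | rfl | rfl | rfl | rfl | rfl <;>
      first | (exact absurd rfl h2) | (exact absurd rfl h3) | decide

end Cfsg.Agent.H94.IMCMathieu
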