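import Cfsg.Agent.H94.IMCPerm
import Cfsg.Agent.H852.IMMathieu

/-!
# Four-transitive groups of degree divisible by four, `p = 2` (helper94, for S4526)

* `exists_four` : for an element `g` of `2`-power order, `|X| = fx + nn + 4 c`;
* `imc_of_four_two` : a four-transitive group of degree divisible by four has `IMC 2`;
* `imc_perm_four`, `imc_perm_two` : the forms for groups of permutations.
-/

set_option autoImplicit false
set_option linter.unusedSectionVars false

open Cfsg
open scoped ComplexConjugate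

namespace Cfsg.Agent.H94.IMCPerm

open Cfsg.Agent.Characters.Core Cfsg.Agent.H625.SylConst Cfsg.Agent.H794.Imc Cfsg.Agent.H852.IMPerm

universe u

section

variable {G : Type u} [Group G] [Finite G] {X : Type*} [MulAction G X]

/-- the points in cycles of length at least four -/
def Long (X : Type*) [MulAction G X] (g : G) : SubMulAction (Subgroup.zpowers g) X where
  carrier := {x | g • g • x ≠ x}
  smul_mem' := by
    rintro ⟨z, hz⟩ x hx
    obtain ⟨i, rfl⟩ := Subgroup.mem_zpowers_iff.1 hz
    intro h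
    apply hx
    have h1 : g • g • (g ^ i) • x = (g ^ i) • g • g • x := by
      rw [smul_smul, smul_smul, smul_smul, smul_smul]
      congr 1
      group
    have h2 : (g ^ i) • g • g • x = (g ^ i) • x := by rw [← h1]; exact h
    exact smul_left_cancel _ h2

theorem four_dvd_card_long [Finite X] {g : G} (hg : ∃ k : ℕ, orderOf g = 2 ^ k) :
    4 ∣ Nat.card (Long X g) := by
  classical
  obtain ⟨k, hk⟩ := hg
  have e := MulAction.selfEquivSigmaOrbitsQuotientStabilizer (Subgroup.zpowers g) (Long X g)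
  have := Fintype.ofFinite (Quotient (MulAction.orbitRel (Subgroup.zpowers g) (Long X g)))
  rw [Nat.card_congr e, Nat.card_sigma]
  refine Finset.dvd_sum fun ω _ => ?_
  set y : Long X g := ω.out with hy
  have h1 : Nat.card (Subgroup.zpowers g ⧸ MulAction.stabilizer (Subgroup.zpowers g) y) =
      (MulAction.stabilizer (Subgroup.zpowers g) y).index := rfl
  rw [h1]
  set H := MulAction.stabilizer (Subgroup.zpowers g) y with hH
  have h2 : H.index ∣ 2 ^ k := by
    rw [← hk, ← Nat.card_zpowers]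
    exact H.index_dvd_card
  obtain ⟨j, -, hj⟩ := (Nat.dvd_prime_pow Nat.prime_two).1 h2
  have hy2 : g • g • (y : X) ≠ (y : X) := y.2
  set g' : Subgroup.zpowers g := ⟨g, Subgroup.mem_zpowers g⟩ with hg'
  have key : ¬ g' ^ 2 ∈ H := by
    intro h
    apply hy2
    have h3 : (g' ^ 2) • y = y := h
    have h4 := congrArg Subtype.val h3
    rw [SubMulAction.val_smul, pow_two] at h4
    rw [← mul_smul]
    exact h4
  rcases Nat.lt_or_ge j 2 with h3 | h3
  · exfalso
    interval_cases j
    · rw [pow_zero, Subgroup.index_eq_one] at hj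
      exact key (by rw [hj]; trivial)
    · rw [pow_one] at hj
      exact key (Subgroup.sq_mem_of_index_two hj g')
  · rw [hj]
    exact pow_dvd_pow 2 h3

theorem exists_four [Finite X] {g : G} (hg : ∃ k : ℕ, orderOf g = 2 ^ k) :
    ∃ c : ℕ, Nat.card X = fx X g + nn X g + 4 * c := by
  classical
  obtain ⟨c, hc⟩ := four_dvd_card_long (X := X) hg
  refine ⟨c, ?_⟩
  rw [← hc, ← fx_sq]
  have h1 : fx X (g * g) = Nat.card {x : X // g • g • x = x} := by
    refine Nat.card_congr (Equiv.subtypeEquivRight fun x => ?_)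
    rw [MulAction.mem_fixedBy, mul_smul]
  have h2 : Nat.card (Long X g) = Nat.card {x : X // ¬ g • g • x = x} := rfl
  rw [h1, h2]
  have := Fintype.ofFinite X
  rw [← Nat.card_sum]
  exact (Nat.card_congr (Equiv.sumCompl fun x : X => g • g • x = x)).symm

theorem even_nn [Finite X] (g : G) : 2 ∣ nn X g := by
  classical
  have := Fintype.ofFinite {x : X // g • g • x = x ∧ g • x ≠ x}
  let f : {x : X // g • g • x = x ∧ g • x ≠ x} → {x : X // g • g • x = x ∧ g • x ≠ x} := fun x =>
    ⟨g • x.1, by rw [x.2.1], fun h => x.2.2 (by rw [x.2.1] at h; exact h.symm)⟩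
  have h1 : Function.Involutive f := fun x => Subtype.ext x.2.1
  have h2 : ∀ x, f x ≠ x := fun x h => x.2.2 (congrArg Subtype.val h)
  have h3 : Even (Fintype.card {x : X // g • g • x = x ∧ g • x ≠ x}) := by
    have h4 := Equiv.Perm.two_dvd_card_support (σ := Function.Involutive.toPerm f h1) (by
      ext x
      simp [pow_two, h1 x])
    have h5 : (Function.Involutive.toPerm f h1).support = Finset.univ := by
      ext x
      simp only [Equiv.Perm.mem_support, Finset.mem_univ, iff_true]
      exact h2 x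
    rw [h5, Finset.card_univ] at h4
    exact even_iff_two_dvd.2 h4
  rw [nn, Nat.card_eq_fintype_card]
  exact even_iff_two_dvd.1 h3

/-- **a four-transitive group of degree divisible by four** -/
theorem imc_of_four_two [Fact (Nat.Prime 2)] [Finite X] (h : MulAction.IsMultiplyPretransitive G X 4)
    (hX : 4 ≤ Nat.card X) (hd : 4 ∣ Nat.card X) : IMC 2 G := by
  have := Fintype.ofFinite G
  obtain ⟨-, ⟨χ, h1, hv⟩⟩ := four_val (G := G) X hX
  refine imc_of_nonneg χ.2 ?_ fun g hg => ?_
  · rw [H670.PSing.charDegree_eq_of h1]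
    obtain ⟨c, hc⟩ := hd
    rw [hc, show 4 * c * (4 * c - 3) = 2 * (2 * c * (4 * c - 3)) by ring, Nat.mul_div_cancel_left _ (by norm_num)]
    exact (Nat.dvd_mul_right 2 c).mul_right _
  · rw [hv]
    obtain ⟨c, hc⟩ := exists_four (X := X) hg
    have he := even_nn (X := X) g
    refine val_b _ _ ?_ ?_ he
    · by_cases h2 : fx X g = 1
      · right; omega
      · exact Or.inl h2
    · by_cases h2 : fx X g = 2
      · right; omega
      · exact Or.inl h2

end

section perm

variable {Ω : Type u} [Finite Ω]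

open Cfsg.Agent.H852.IMMathieu in
/-- a group of permutations `k`-transitive on an invariant set, `4 ≤ k` -/
theorem imc_perm_four (H : Subgroup (Equiv.Perm Ω)) (d : Set Ω) (hd : ∀ g ∈ H, ∀ x ∈ d, g x ∈ d)
    (k : ℕ) (h : ∀ x y : Fin k ↪ Ω, (∀ i, x i ∈ d) → (∀ i, y i ∈ d) → ∃ g ∈ H, ∀ i, g (x i) = y i)
    (hk : 4 ≤ k) {n : ℕ} (hn : Nat.card d = n) (hkn : k ≤ n) {p : ℕ} [hp : Fact p.Prime]
    (hp' : p ∣ n - 1 ∨ (p ≠ 2 ∧ p ∣ (n - 1) * (n - 2) / 2) ∨ (p ≠ 2 ∧ p ∣ n * (n - 3) / 2) ∨ (p = 2 ∧ 4 ∣ n)) :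
    IMC p H := by
  let _ := actOn H d hd
  have h1 := trans_on H d hd k h
  have h2 : MulAction.IsMultiplyPretransitive H d 4 :=
    MulAction.isMultiplyPretransitive_of_le (n := k) hk (by omega)
  have h3 : MulAction.IsMultiplyPretransitive H d 2 :=
    MulAction.isMultiplyPretransitive_of_le (n := k) (by omega) (by omega)
  rcases hp' with h4 | ⟨h4, h5⟩ | ⟨h4, h5⟩ | ⟨rfl, h5⟩
  · exact imc_of_two h3 (by omega) (by rw [hn]; exact h4)
  · exact imc_of_four_a h2 (by omega) h4 (by rw [hn]; exact h5)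
  · exact imc_of_four_b h2 (by omega) h4 (by rw [hn]; exact h5)
  · exact imc_of_four_two h2 (by omega) (by rw [hn]; exact h5)

open Cfsg.Agent.H852.IMMathieu in
/-- a group of permutations `k`-transitive on an invariant set, `2 ≤ k` -/
theorem imc_perm_two (H : Subgroup (Equiv.Perm Ω)) (d : Set Ω) (hd : ∀ g ∈ H, ∀ x ∈ d, g x ∈ d)
    (k : ℕ) (h : ∀ x y : Fin k ↪ Ω, (∀ i, x i ∈ d) → (∀ i, y i ∈ d) → ∃ g ∈ H, ∀ i, g (x i) = y i)
    (hk : 2 ≤ k) {n : ℕ} (hn : Nat.card d = n) (hkn : k ≤ n) {p : ℕ} [hp : Fact p.Prime] (hp' : p ∣ n - 1) :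
    IMC p H := by
  let _ := actOn H d hd
  have h1 := trans_on H d hd k h
  have h3 : MulAction.IsMultiplyPretransitive H d 2 :=
    MulAction.isMultiplyPretransitive_of_le (n := k) (by omega) (by omega)
  exact imc_of_two h3 (by omega) (by rw [hn]; exact hp')

end perm

end Cfsg.Agent.H94.IMCPerm
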