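import Cfsg.Agent.H94.Matching

/-!
# Orbits of a Sylow 2-subgroup of a symmetric group (helper94)

* `exists_restrict` : `A` a `P`-invariant set, `g ∈ P`: the permutation which is `g` on `A` and `1` off `A` lies in `P`;
* `exists_exps` : `|Ω| = ∑_{i ∈ s} 2^i`, and the orbit sizes of `P` are exactly the `2^i`, `i ∈ s`;
* `orbit_eq_of_card` : two orbits of the same size are equal.
-/

set_option autoImplicit false
set_option linter.unusedSectionVars false
set_option linter.unusedVariables false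

namespace Cfsg.Agent.H94.Syl2Sym

open Equiv Subgroup

variable {Ω : Type*} [DecidableEq Ω] [Fintype Ω]

/-- the permutations which agree on `A` and off `A` with elements of `P` -/
def twoSided (P : Subgroup (Perm Ω)) (A : Set Ω) (hA : ∀ g ∈ P, ∀ i, g i ∈ A ↔ i ∈ A) : Subgroup (Perm Ω) where
  carrier := {h | (∃ g ∈ P, ∀ x ∈ A, h x = g x) ∧ ∃ g ∈ P, ∀ x, x ∉ A → h x = g x}
  mul_mem' := by
    rintro h h' ⟨⟨g, hg, e1⟩, ⟨g2, hg2, e2⟩⟩ ⟨⟨g', hg', e1'⟩, ⟨g2', hg2', e2'⟩⟩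
    refine ⟨⟨g * g', P.mul_mem hg hg', fun x hx => ?_⟩, ⟨g2 * g2', P.mul_mem hg2 hg2', fun x hx => ?_⟩⟩
    · rw [Perm.mul_apply, e1' x hx, e1 _ ((hA _ hg' _).2 hx), Perm.mul_apply]
    · rw [Perm.mul_apply, e2' x hx, e2 _ (fun h => hx ((hA _ hg2' _).1 h)), Perm.mul_apply]
  one_mem' := ⟨⟨1, P.one_mem, fun _ _ => rfl⟩, ⟨1, P.one_mem, fun _ _ => rfl⟩⟩
  inv_mem' := by
    rintro h ⟨⟨g, hg, e1⟩, ⟨g2, hg2, e2⟩⟩
    refine ⟨⟨g⁻¹, P.inv_mem hg, fun x hx => ?_⟩, ⟨g2⁻¹, P.inv_mem hg2, fun x hx => ?_⟩⟩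
    · rw [Perm.inv_eq_iff_eq, e1 _ ((hA _ (P.inv_mem hg) _).2 hx)]
      simp
    · rw [Perm.inv_eq_iff_eq, e2 _ (fun h => hx ((hA _ (P.inv_mem hg2) _).1 h))]
      simp

theorem exists_restrict (P : Sylow 2 (Perm Ω)) {A : Set Ω} (hA : ∀ g ∈ (P : Subgroup (Perm Ω)), ∀ i, g i ∈ A ↔ i ∈ A)
    {g : Perm Ω} (hg : g ∈ (P : Subgroup (Perm Ω))) :
    ∃ h ∈ (P : Subgroup (Perm Ω)), (∀ x ∈ A, h x = g x) ∧ ∀ x, x ∉ A → h x = x := by
  classical
  have hle : (P : Subgroup (Perm Ω)) ≤ twoSided P A hA := fun g hg => ⟨⟨g, hg, fun _ _ => rfl⟩, ⟨g, hg, fun _ _ => rfl⟩⟩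
  have hpg : IsPGroup 2 (twoSided P A hA) := by
    rintro ⟨h, ⟨g1, hg1, e1⟩, ⟨g2, hg2, e2⟩⟩
    obtain ⟨a, ha⟩ := P.isPGroup' ⟨g1, hg1⟩
    obtain ⟨b, hb⟩ := P.isPGroup' ⟨g2, hg2⟩
    have ha' : g1 ^ 2 ^ a = 1 := congrArg Subtype.val ha
    have hb' : g2 ^ 2 ^ b = 1 := congrArg Subtype.val hb
    have p1 : ∀ m : ℕ, ∀ x ∈ A, (h ^ m) x = (g1 ^ m) x := by
      intro m
      induction m with
      | zero => intro x _; rfl
      | succ m ih =>
        intro x hx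
        rw [pow_succ, Perm.mul_apply, e1 x hx, ih _ ((hA _ hg1 _).2 hx), pow_succ, Perm.mul_apply]
    have p2 : ∀ m : ℕ, ∀ x, x ∉ A → (h ^ m) x = (g2 ^ m) x := by
      intro m
      induction m with
      | zero => intro x _; rfl
      | succ m ih =>
        intro x hx
        rw [pow_succ, Perm.mul_apply, e2 x hx, ih _ (fun h => hx ((hA _ hg2 _).1 h)), pow_succ, Perm.mul_apply]
    refine ⟨a + b, ?_⟩
    apply Subtype.ext
    change h ^ 2 ^ (a + b) = 1
    ext x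
    by_cases hx : x ∈ A
    · rw [p1 _ x hx, pow_add, pow_mul, ha', one_pow]
    · rw [p2 _ x hx, pow_add, mul_comm, pow_mul, hb', one_pow]
  have heq : twoSided (P : Subgroup (Perm Ω)) A hA = P := P.is_maximal' hpg hle
  let h : Perm Ω := Perm.ofSubtype (g.subtypePerm (p := fun i => i ∈ A) (fun i => hA g hg i))
  have h1 : ∀ x ∈ A, h x = g x := fun x hx =>
    Perm.ofSubtype_apply_of_mem (g.subtypePerm (p := fun i => i ∈ A) (fun i => hA g hg i)) hx
  have h2 : ∀ x, x ∉ A → h x = x := fun x hx => Perm.ofSubtype_apply_of_not_mem _ hx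
  refine ⟨h, ?_, h1, h2⟩
  rw [← heq]
  exact ⟨⟨g, hg, h1⟩, ⟨1, one_mem _, h2⟩⟩

theorem mem_orbit_iff' (P : Subgroup (Perm Ω)) (x y : Ω) : y ∈ MulAction.orbit P x ↔ ∃ g ∈ P, g x = y := by
  constructor
  · rintro ⟨⟨g, hg⟩, rfl⟩
    exact ⟨g, hg, rfl⟩
  · rintro ⟨g, hg, rfl⟩
    exact ⟨⟨g, hg⟩, rfl⟩

theorem orbit_inv (P : Subgroup (Perm Ω)) (x : Ω) {g : Perm Ω} (hg : g ∈ P) (i : Ω) :
    g i ∈ MulAction.orbit P x ↔ i ∈ MulAction.orbit P x := by
  rw [mem_orbit_iff', mem_orbit_iff']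
  constructor
  · rintro ⟨h, hh, e⟩
    refine ⟨g⁻¹ * h, P.mul_mem (P.inv_mem hg) hh, ?_⟩
    rw [Perm.mul_apply, e]
    simp
  · rintro ⟨h, hh, e⟩
    exact ⟨g * h, P.mul_mem hg hh, by rw [Perm.mul_apply, e]⟩

theorem orbit_card (P : Sylow 2 (Perm Ω)) (x : Ω) : ∃ k, (MulAction.orbit (P : Subgroup (Perm Ω)) x).ncard = 2 ^ k := by
  obtain ⟨k, hk⟩ := P.isPGroup'.card_orbit x
  exact ⟨k, hk⟩

theorem orbit_eq_of_card (P : Sylow 2 (Perm Ω)) {x y : Ω}
    (h : (MulAction.orbit (P : Subgroup (Perm Ω)) x).ncard = (MulAction.orbit (P : Subgroup (Perm Ω)) y).ncard) :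
    MulAction.orbit (P : Subgroup (Perm Ω)) x = MulAction.orbit (P : Subgroup (Perm Ω)) y :=
  set_eq_of_card P (fun _ hp i => orbit_inv _ x hp i) (fun _ hp i => orbit_inv _ y hp i) h

theorem exists_exps (P : Sylow 2 (Perm Ω)) : ∃ s : Finset ℕ, Fintype.card Ω = ∑ i ∈ s, 2 ^ i ∧
    (∀ x : Ω, ∃ i ∈ s, (MulAction.orbit (P : Subgroup (Perm Ω)) x).ncard = 2 ^ i) ∧
    (∀ i ∈ s, ∃ x : Ω, (MulAction.orbit (P : Subgroup (Perm Ω)) x).ncard = 2 ^ i) := by
  classical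
  let Q := MulAction.orbitRel.Quotient (P : Subgroup (Perm Ω)) Ω
  have : Fintype Q := Fintype.ofFinite Q
  choose f hf using fun x : Ω => orbit_card P x
  have hq : ∀ q : Q, ∃ k, q.orbit.ncard = 2 ^ k := by
    intro q
    induction q using Quotient.inductionOn' with
    | h x => exact ⟨f x, by rw [← hf x]; rfl⟩
  choose e he using hq
  have hinj : Function.Injective e := by
    intro q q' hqq
    induction q using Quotient.inductionOn' with
    | h x =>
      induction q' using Quotient.inductionOn' with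
      | h y =>
        have h1 : (MulAction.orbit (P : Subgroup (Perm Ω)) x).ncard = (MulAction.orbit (P : Subgroup (Perm Ω)) y).ncard := by
          have a := he (Quotient.mk'' x)
          have b := he (Quotient.mk'' y)
          rw [hqq] at a
          exact a.trans b.symm
        have h2 := orbit_eq_of_card P h1
        rw [Quotient.eq'']
        change x ∈ MulAction.orbit (P : Subgroup (Perm Ω)) y
        rw [← h2]
        exact MulAction.mem_orbit_self x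
  refine ⟨Finset.univ.image e, ?_, fun x => ?_, fun i hi => ?_⟩
  · rw [Finset.sum_image (fun a _ b _ h => hinj h)]
    have h1 := Fintype.card_congr (MulAction.selfEquivSigmaOrbits' (P : Subgroup (Perm Ω)) Ω)
    rw [Fintype.card_sigma] at h1
    rw [h1]
    refine Finset.sum_congr rfl fun q _ => ?_
    rw [← he q, ← Nat.card_eq_fintype_card]
    rfl
  · refine ⟨e (Quotient.mk'' x), Finset.mem_image_of_mem _ (Finset.mem_univ _), ?_⟩
    rw [← he]
    rfl
  · rw [Finset.mem_image] at hi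
    obtain ⟨q, -, rfl⟩ := hi
    induction q using Quotient.inductionOn' with
    | h x => exact ⟨x, by rw [← he]; rfl⟩

end Cfsg.Agent.H94.Syl2Sym
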